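import Mathlib

/-!
# The degree just below the bound does not divide the order of E₆(q)
-/

set_option autoImplicit false

namespace Cfsg.Agent.E6Deg

theorem bezout2 (q : ℤ) :
    ((-2) + (3 * q ^ 1)) *
      (q ^ 9 + q ^ 8 + q ^ 5 + q ^ 4 + q ^ 3 + q ^ 2 - 1) +
    ((-3) + (-3 * q ^ 1) + (-5 * q ^ 2) + (-2 * q ^ 3) + (-4 * q ^ 4) + (-1 * q ^ 5) + (-1 * q ^ 6) + (-1 * q ^ 7) + (-3 * q ^ 8)) * (q ^ 2 - 1) = 5 := by ring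

theorem bezout5 (q : ℤ) :
    ((-14) + (16 * q ^ 1) + (-4 * q ^ 2) + (1 * q ^ 3) + (6 * q ^ 4)) *
      (q ^ 9 + q ^ 8 + q ^ 5 + q ^ 4 + q ^ 3 + q ^ 2 - 1) +
    ((-11) + (-16 * q ^ 1) + (-10 * q ^ 2) + (1 * q ^ 3) + (-8 * q ^ 4) + (-12 * q ^ 5) + (3 * q ^ 6) + (-7 * q ^ 7) + (-6 * q ^ 8)) * (q ^ 5 - 1) = 25 := by ring

theorem bezout6 (q : ℤ) :
    ((-12) + (13 * q ^ 1) + (-7 * q ^ 2) + (8 * q ^ 3) + (3 * q ^ 4) + (3 * q ^ 5)) *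
      (q ^ 9 + q ^ 8 + q ^ 5 + q ^ 4 + q ^ 3 + q ^ 2 - 1) +
    ((-28) + (-13 * q ^ 1) + (-5 * q ^ 2) + (-7 * q ^ 3) + (-9 * q ^ 4) + (-1 * q ^ 5) + (-11 * q ^ 6) + (-6 * q ^ 7) + (-3 * q ^ 8)) * (q ^ 6 - 1) = 40 := by ring

theorem bezout8 (q : ℤ) :
    ((-3) + (2 * q ^ 1) + (-3 * q ^ 2) + (2 * q ^ 3) + (2 * q ^ 4) + (-3 * q ^ 5) + (2 * q ^ 6) + (2 * q ^ 7)) *
      (q ^ 9 + q ^ 8 + q ^ 5 + q ^ 4 + q ^ 3 + q ^ 2 - 1) +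
    ((-2) + (-2 * q ^ 1) + (-3 * q ^ 3) + (-6 * q ^ 4) + (1 * q ^ 5) + (1 * q ^ 6) + (-4 * q ^ 7) + (-2 * q ^ 8)) * (q ^ 8 - 1) = 5 := by ring

theorem bezout9 (q : ℤ) :
    ((-7) + (8 * q ^ 1) + (-7 * q ^ 2) + (3 * q ^ 3) + (-2 * q ^ 4) + (3 * q ^ 5) + (3 * q ^ 6) + (-2 * q ^ 7) + (3 * q ^ 8)) *
      (q ^ 9 + q ^ 8 + q ^ 5 + q ^ 4 + q ^ 3 + q ^ 2 - 1) +
    ((-3) + (-8 * q ^ 1) + (-2 * q ^ 3) + (-4 * q ^ 4) + (-6 * q ^ 5) + (-1 * q ^ 6) + (-1 * q ^ 7) + (-3 * q ^ 8)) * (q ^ 9 - 1) = 10 := by ring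

theorem bezout12 (q : ℤ) :
    ((-32) + (13 * q ^ 1) + (-27 * q ^ 2) + (28 * q ^ 3) + (3 * q ^ 4) + (-17 * q ^ 5) + (8 * q ^ 6) + (13 * q ^ 7) + (13 * q ^ 8) + (-12 * q ^ 9) + (3 * q ^ 10) + (23 * q ^ 11)) *
      (q ^ 9 + q ^ 8 + q ^ 5 + q ^ 4 + q ^ 3 + q ^ 2 - 1) +
    ((-48) + (-13 * q ^ 1) + (-5 * q ^ 2) + (-47 * q ^ 3) + (-49 * q ^ 4) + (-1 * q ^ 5) + (9 * q ^ 6) + (-26 * q ^ 7) + (-23 * q ^ 8)) * (q ^ 12 - 1) = 80 := by ring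

theorem gcd_dvd {h g L : ℤ} {a b : ℤ} (e : a * h + b * g = L) : (Int.gcd h g : ℤ) ∣ L :=
  e ▸ dvd_add ((Int.gcd_dvd_left _ _).mul_left _) ((Int.gcd_dvd_right _ _).mul_left _)

theorem gcd_nat {q n h L : ℕ} (hq : 1 ≤ q) (hh : (h : ℤ) = (q : ℤ) ^ 9 + q ^ 8 + q ^ 5 + q ^ 4 + q ^ 3 + q ^ 2 - 1)
    {a b : ℤ} (e : a * ((q : ℤ) ^ 9 + q ^ 8 + q ^ 5 + q ^ 4 + q ^ 3 + q ^ 2 - 1) + b * ((q : ℤ) ^ n - 1) = (L : ℤ)) :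
    Nat.gcd h (q ^ n - 1) ∣ L := by
  have := gcd_dvd e
  rw [← hh, show (q : ℤ) ^ n - 1 = ((q ^ n - 1 : ℕ) : ℤ) by
    rw [Nat.cast_sub (Nat.one_le_pow _ _ hq), Nat.cast_pow, Nat.cast_one], Int.gcd_natCast_natCast] at this
  exact_mod_cast this

theorem not_dvd_order {q : ℕ} (hq : 2 ≤ q) :
    ¬ q ^ 11 + q ^ 8 + q ^ 7 + q ^ 5 + q ^ 4 + q - 1 ∣
      q ^ 36 * (q ^ 2 - 1) * (q ^ 5 - 1) * (q ^ 6 - 1) * (q ^ 8 - 1) * (q ^ 9 - 1) * (q ^ 12 - 1) := by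
  intro hd
  set h := q ^ 9 + q ^ 8 + q ^ 5 + q ^ 4 + q ^ 3 + q ^ 2 - 1 with hdef
  have h1 : 1 ≤ q ^ 2 := Nat.one_le_pow _ _ (by omega)
  have hh : (h : ℤ) = (q : ℤ) ^ 9 + q ^ 8 + q ^ 5 + q ^ 4 + q ^ 3 + q ^ 2 - 1 := by
    rw [hdef, Nat.cast_sub (by omega)]
    push_cast
    ring
  have hfac : h ∣ q ^ 11 + q ^ 8 + q ^ 7 + q ^ 5 + q ^ 4 + q - 1 := by
    have : (h : ℤ) ∣ ((q ^ 11 + q ^ 8 + q ^ 7 + q ^ 5 + q ^ 4 + q - 1 : ℕ) : ℤ) := by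
      refine ⟨(q : ℤ) ^ 2 - q + 1, ?_⟩
      rw [hh, Nat.cast_sub (by omega)]
      push_cast
      ring
    exact_mod_cast this
  have hhd := hfac.trans hd
  have hcop : Nat.Coprime h (q ^ 36) := by
    refine Nat.Coprime.pow_right _ ?_
    have e : h + 1 = q * (q ^ 8 + q ^ 7 + q ^ 4 + q ^ 3 + q ^ 2 + q) := by
      rw [hdef, Nat.sub_add_cancel (by omega)]
      ring
    apply Nat.coprime_of_dvd
    intro p hp hph hpq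
    have : p ∣ h + 1 := e ▸ hpq.mul_right _
    exact hp.one_lt.ne' (Nat.dvd_one.1 ((Nat.dvd_add_right hph).1 this))
  rw [mul_assoc, mul_assoc, mul_assoc, mul_assoc, mul_assoc] at hhd
  have h2 := hcop.dvd_of_dvd_mul_left hhd
  have hle : h ∣ 5 * (25 * (40 * (5 * (10 * 80)))) := by
    have s := fun a b => Nat.gcd_mul_right_dvd_mul_gcd h a b
    refine dvd_trans (dvd_of_eq (Nat.gcd_eq_left h2).symm) ?_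
    refine (s _ _).trans (mul_dvd_mul (gcd_nat (by omega) hh (bezout2 q)) ?_)
    refine (s _ _).trans (mul_dvd_mul (gcd_nat (by omega) hh (bezout5 q)) ?_)
    refine (s _ _).trans (mul_dvd_mul (gcd_nat (by omega) hh (bezout6 q)) ?_)
    refine (s _ _).trans (mul_dvd_mul (gcd_nat (by omega) hh (bezout8 q)) ?_)
    refine (s _ _).trans (mul_dvd_mul (gcd_nat (by omega) hh (bezout9 q)) ?_)
    exact gcd_nat (by omega) hh (bezout12 q)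
  have hb := Nat.le_of_dvd (by norm_num) hle
  rcases Nat.lt_or_ge q 7 with hlt | hge
  · interval_cases q <;> norm_num [hdef] at hd
  · have h7 : 7 ^ 9 ≤ q ^ 9 := Nat.pow_le_pow_left hge 9
    norm_num at hb h7
    omega

end Cfsg.Agent.E6Deg
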