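import Cfsg.Agent.E6Deg.Data

/-!
# Edges of the two blocks
-/

set_option autoImplicit false
set_option synthInstance.maxSize 2000
set_option synthInstance.maxHeartbeats 200000

namespace Cfsg.Agent.E6Deg

open Cfsg.Lie

/-- An edge: a root moving coordinate `s` to coordinate `p.2`, and its negative moving back, each nothing else. -/
def EdgeOk (b k lo hi : ℕ) (s : Fin k) (p : ℕ × Fin k) : Prop :=
  lo ≤ p.1 ∧ p.1 < hi ∧ lo ≤ chevE6.neg p.1 ∧ chevE6.neg p.1 < hi ∧ p.2 ≠ s ∧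
    (tgt b k (chevE6.neg p.1) s).map Prod.fst = some p.2 ∧
    (∀ j, (tgt b k p.1 j).map Prod.fst = some s → j = p.2) ∧
    (∀ j, (tgt b k (chevE6.neg p.1) j).map Prod.fst = some p.2 → j = s) ∧
    ∀ j, (tgt b k (chevE6.neg p.1) j).map Prod.fst ≠ some s

instance (b k lo hi : ℕ) (s : Fin k) (p : ℕ × Fin k) : Decidable (EdgeOk b k lo hi s p) :=
  inferInstanceAs (Decidable (_ ∧ _))

theorem edgeA : ∀ s : Fin 16, ∀ p ∈ cell 56 16 36 56 s, EdgeOk 56 16 16 56 s p := by decide +kernel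

theorem edgeB : ∀ s : Fin 10, ∀ p ∈ cell 46 10 36 46 s, EdgeOk 46 10 26 46 s p := by decide +kernel

theorem edgeLowA : ∀ s : Fin 16, s ∈ botA → ∀ p ∈ low 56 16 26 46 botA s, 26 ≤ p.1 ∧ p.1 < 46 := by
  decide +kernel

theorem edgeLowB : ∀ s : Fin 10, s ∈ botB → ∀ p ∈ low 46 10 26 46 botB s, 26 ≤ p.1 ∧ p.1 < 46 := by
  decide +kernel

theorem cellPosA : ∀ s : Fin 16, ∀ p ∈ cell 56 16 36 56 s, 36 ≤ p.1 ∧ p.1 < 56 := by decide +kernel

theorem cellPosB : ∀ s : Fin 10, ∀ p ∈ cell 46 10 36 46 s, 36 ≤ p.1 ∧ p.1 < 46 := by decide +kernel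

theorem cellTopA : (cell 56 16 36 56 15).length = 10 ∧ (∀ p ∈ cell 56 16 36 56 15, p.2 ∉ botA) ∧ (15 : Fin 16) ∉ botA := by
  decide +kernel

theorem cellTopB : (cell 46 10 36 46 9).length = 6 ∧ (∀ p ∈ cell 46 10 36 46 9, p.2 ∉ botB) ∧ (9 : Fin 10) ∉ botB := by
  decide +kernel

end Cfsg.Agent.E6Deg
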