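import Cfsg.Agent.E6Deg.Spec
import Cfsg.Agent.E6Deg.Data2

/-!
# The orbits of the Levi factor on the characters of a block
-/

set_option autoImplicit false
set_option linter.unusedSectionVars false

namespace Cfsg.Agent.E6Deg

open Cfsg.Lie
open Module (finrank)

/-- A block of roots with its movers and the lists of moves. -/
structure Block (k : ℕ) where
  b : ℕ
  lo : ℕ
  hi : ℕ
  top : Fin k
  bot : List (Fin k)
  cel : Fin k → List (ℕ × Fin k)
  lw : Fin k → List (ℕ × Fin k)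
  hb : b + k ≤ 72
  hhi : hi ≤ 72
  ok : BlockOk b k lo hi
  comm : ∀ i j : Fin k, i ≠ j → blk b j ≠ chevE6.neg (blk b i) ∧ chevE6.commTerms (blk b i) (blk b j) = []
  celOk : ∀ s, StarOk b k s (cel s)
  celRange : ∀ s, ∀ p ∈ cel s, lo ≤ p.1 ∧ p.1 < hi
  celPos : ∀ s, ∀ p ∈ cel s, ∀ j : Fin k, ∀ i ∈ (tgt b k p.1 j).toList, j.val < i.1.val
  edge : ∀ s, ∀ p ∈ cel s, EdgeOk b k lo hi s p
  up : ∀ s : Fin k, s = top ∨ ∃ s' : Fin k, s < s' ∧ s ∈ (cel s').map Prod.snd
  celNe : cel top ≠ []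
  top_nmem : top ∉ bot
  cover : ∀ j : Fin k, j = top ∨ j ∈ bot ∨ j ∈ (cel top).map Prod.snd
  celTop : ∀ p ∈ cel top, p.2 ∉ bot
  lowOk : ∀ s, s ∈ bot → StarOk b k s (lw s) ∧ ∀ p ∈ lw s, p.2 ∈ bot ∧ ∀ j : Fin k, j ∉ bot →
    ∀ i ∈ (tgt b k p.1 j).toList, i.1 ∉ bot ∧ i.1 ≠ top
  lowRange : ∀ s, s ∈ bot → ∀ p ∈ lw s, lo ≤ p.1 ∧ p.1 < hi
  lowCover : ∀ s, s ∈ bot → ∀ j, j ∈ bot → j = s ∨ j ∈ (lw s).map Prod.snd

namespace Block

variable {k : ℕ} (B : Block k) {F : Type*} [Field F]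

theorem pm {r : ℕ} (h1 : B.lo ≤ r) (h2 : r < B.hi) (j : Fin k) :
    ∀ i ∈ (tgt B.b k r j).toList, i.2 = 1 ∨ i.2 = -1 := by
  obtain ⟨r', rfl⟩ : ∃ r', r = B.lo + r' := ⟨r - B.lo, by omega⟩
  exact fun i hi => ((B.ok ⟨r', by omega⟩ j).2.2.2 i hi).1

theorem cel_above (s : Fin k) (t x : Fin k → F) (hx : ∀ j, s < j → x j = 0) :
    ∀ j, s < j → app B.b (B.cel s) t x j = 0 :=
  app_induction (P := fun y => ∀ j, s < j → y j = 0) t (fun p hp y hy j hj => by
    rcases h : tgt B.b k p.1 j with _ | ⟨i, c⟩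
    · rw [mv_none h, hy j hj]
    · have := B.celPos s p hp j (i, c) (by simp [h])
      rw [mv_some h, hy j hj, hy i (lt_trans hj this)]
      simp) hx

theorem low_fix {s : Fin k} (hs : s ∈ B.bot) (t x : Fin k → F) (hx : ∀ j, j ∉ B.bot → j ≠ B.top → x j = 0) :
    ∀ j, j ∉ B.bot → app B.b (B.lw s) t x j = x j :=
  app_induction (P := fun y => ∀ j, j ∉ B.bot → y j = x j) t (fun p hp y hy j hj => by
    rcases h : tgt B.b k p.1 j with _ | ⟨i, c⟩
    · rw [mv_none h, hy j hj]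
    · obtain ⟨h1, h2⟩ := ((B.lowOk s hs).2 p hp).2 j hj (i, c) (by simp [h])
      rw [mv_some h, hy j hj, hy i h1, hx i h1 h2]
      simp) fun j _ => rfl

variable [Fintype F] [DecidableEq F] {V : Type*} [AddCommGroup V] [Module ℂ V] [FiniteDimensional ℂ V]
  (ρ : Representation ℂ (Gam F) V) (ψ : AddChar F ℂ) {W : Submodule ℂ V}
  (hW : ∀ r, B.lo ≤ r → r < B.hi → Stable ρ W r)

include hW

theorem mult_cel (s : Fin k) (t x : Fin k → F) :
    mult ρ ψ W B.b (app B.b (B.cel s) t x) = mult ρ ψ W B.b x :=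
  mult_app ρ ψ B.ok B.hb B.hhi hW (B.celRange s) t x

theorem mult_low {s : Fin k} (hs : s ∈ B.bot) (t x : Fin k → F) :
    mult ρ ψ W B.b (app B.b (B.lw s) t x) = mult ρ ψ W B.b x :=
  mult_app ρ ψ B.ok B.hb B.hhi hW (B.lowRange s hs) t x

theorem single_step {s : Fin k} {p : ℕ × Fin k} (hp : p ∈ B.cel s) {a a' : F} (ha : a ≠ 0) (ha' : a' ≠ 0) :
    mult ρ ψ W B.b (Pi.single s a) = mult ρ ψ W B.b (Pi.single p.2 a') := by
  obtain ⟨h1, h2, h3, h4, hne, hback, hu1, hu2, hu3⟩ := B.edge s p hp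
  obtain ⟨⟨i, c⟩, hc, hci⟩ := Option.map_eq_some_iff.1 ((B.celOk s).2 p hp).1
  obtain ⟨⟨i', c'⟩, hc', hci'⟩ := Option.map_eq_some_iff.1 hback
  obtain rfl : s = i := hci.symm
  obtain rfl : i' = p.2 := hci'
  have hcF : (c : F) ≠ 0 := cast_pm (B.pm h1 h2 p.2 (s, c) (by simp [hc]))
  have hcF' : (c' : F) ≠ 0 := cast_pm (B.pm h3 h4 s (p.2, c') (by simp [hc']))
  have e1 : mv B.b p.1 (a' / ((c : F) * a)) (Pi.single s a) = Pi.single s a + Pi.single p.2 a' := by
    funext j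
    rcases eq_or_ne j p.2 with rfl | hj
    · rw [mv_some hc, Pi.add_apply, Pi.single_eq_same, Pi.single_eq_same]
      field_simp
    · rw [Pi.add_apply, Pi.single_eq_of_ne hj, add_zero]
      rcases h : tgt B.b k p.1 j with _ | ⟨i, e⟩
      · rw [mv_none h]
      · have : i ≠ s := fun e' => hj (hu1 j (by simp [h, e']))
        rw [mv_some h, Pi.single_eq_of_ne this, mul_zero, add_zero]
  have e2 : mv B.b (chevE6.neg p.1) (-a / ((c' : F) * a')) (Pi.single s a + Pi.single p.2 a') =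
      Pi.single p.2 a' := by
    funext j
    rcases eq_or_ne j s with rfl | hj
    · rw [mv_some hc']
      simp only [Pi.add_apply, Pi.single_eq_same, Pi.single_eq_of_ne hne, Pi.single_eq_of_ne hne.symm]
      field_simp
      ring
    · rcases h : tgt B.b k (chevE6.neg p.1) j with _ | ⟨i, e⟩
      · rw [mv_none h]
        simp [Pi.single_eq_of_ne hj]
      · have hi1 : i ≠ p.2 := fun e' => hj (hu2 j (by simp [h, e']))
        have hi2 : i ≠ s := fun e' => hu3 j (by simp [h, e'])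
        rw [mv_some h]
        simp [Pi.single_eq_of_ne hj, Pi.single_eq_of_ne hi1, Pi.single_eq_of_ne hi2]
  rw [← mult_mv ρ ψ B.ok B.hb B.hhi hW h1 h2 (a' / ((c : F) * a)) (Pi.single s a), e1,
    ← mult_mv ρ ψ B.ok B.hb B.hhi hW h3 h4 (-a / ((c' : F) * a')), e2]

/-- The multiplicity of a character supported at one coordinate does not depend on it. -/
theorem mult_single : ∀ (n : ℕ) (s : Fin k), k - s.val ≤ n → ∀ a : F, a ≠ 0 →
    mult ρ ψ W B.b (Pi.single s a) = mult ρ ψ W B.b (Pi.single B.top 1)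
  | 0, s, h, _, _ => absurd s.isLt (by omega)
  | n + 1, s, h, a, ha => by
    rcases B.up s with rfl | ⟨s', hlt, hmem⟩
    · obtain ⟨p, hp⟩ := List.exists_mem_of_ne_nil _ B.celNe
      rw [B.single_step ρ ψ hW hp ha one_ne_zero, B.single_step ρ ψ hW hp one_ne_zero one_ne_zero]
    · obtain ⟨p, hp, rfl⟩ := List.mem_map.1 hmem
      rw [← B.single_step ρ ψ hW hp one_ne_zero ha]
      exact mult_single n s' (by have := Fin.lt_def.1 hlt; omega) 1 one_ne_zero

theorem reach_top : ∀ (n : ℕ) (s : Fin k), k - s.val ≤ n → ∀ x : Fin k → F, x s ≠ 0 →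
    ∃ y : Fin k → F, y B.top ≠ 0 ∧ mult ρ ψ W B.b y = mult ρ ψ W B.b x
  | 0, s, h, _, _ => absurd s.isLt (by omega)
  | n + 1, s, h, x, hx => by
    rcases B.up s with rfl | ⟨s', hlt, hmem⟩
    · exact ⟨x, hx, rfl⟩
    obtain ⟨p, hp, rfl⟩ := List.mem_map.1 hmem
    have hn : k - s'.val ≤ n := by have := Fin.lt_def.1 hlt; omega
    by_cases hs' : x s' = 0
    · obtain ⟨-, -, h3, h4, -, hback, -, -, -⟩ := B.edge s' p hp
      obtain ⟨⟨i, c⟩, hc, hci⟩ := Option.map_eq_some_iff.1 hback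
      obtain rfl : i = p.2 := hci
      have hcF : (c : F) ≠ 0 := cast_pm (B.pm h3 h4 s' (p.2, c) (by simp [hc]))
      obtain ⟨y, hy, he⟩ := reach_top n s' hn (mv B.b (chevE6.neg p.1) 1 x) (by
        rw [mv_some hc, hs', zero_add, mul_one]
        exact mul_ne_zero hcF hx)
      exact ⟨y, hy, he.trans (mult_mv ρ ψ B.ok B.hb B.hhi hW h3 h4 1 x)⟩
    · exact reach_top n s' hn x hs'

theorem normalise (x : Fin k → F) (hx : x ≠ 0) : ∃ y : Fin k → F, y B.top ≠ 0 ∧
    (∀ j, j ∉ B.bot → j ≠ B.top → y j = 0) ∧ mult ρ ψ W B.b y = mult ρ ψ W B.b x := by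
  obtain ⟨s, hs⟩ := Function.ne_iff.1 hx
  obtain ⟨y, hy, he⟩ := B.reach_top ρ ψ hW k s (by omega) x hs
  obtain ⟨t, ht⟩ := star_solve (B.celOk B.top)
    (fun p hp => B.pm (B.celRange _ p hp).1 (B.celRange _ p hp).2 _) 0 y hy
  refine ⟨app B.b (B.cel B.top) t y, ?_, fun j hj hjt => ?_, (B.mult_cel ρ ψ hW _ t y).trans he⟩
  · rw [(star_spec (B.celOk B.top) t y).1]; exact hy
  · obtain ⟨p, hp, rfl⟩ := List.mem_map.1 (((B.cover j).resolve_left hjt).resolve_left hj)
    exact ht p hp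

/-- A character supported on the low coordinates has the multiplicity of the singles. -/
theorem mult_bot (x : Fin k → F) (hx : x ≠ 0) (hsupp : ∀ j, j ∉ B.bot → x j = 0) :
    mult ρ ψ W B.b x = mult ρ ψ W B.b (Pi.single B.top 1) := by
  obtain ⟨s, hs⟩ := Function.ne_iff.1 hx
  have hsb : s ∈ B.bot := by
    by_contra h
    exact hs (hsupp s h)
  obtain ⟨t, ht⟩ := star_solve (B.lowOk s hsb).1
    (fun p hp => B.pm (B.lowRange s hsb p hp).1 (B.lowRange s hsb p hp).2 _) 0 x hs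
  have e : app B.b (B.lw s) t x = Pi.single s (x s) := by
    funext j
    rcases eq_or_ne j s with rfl | hj
    · rw [Pi.single_eq_same, (star_spec (B.lowOk j hsb).1 t x).1]
    · rw [Pi.single_eq_of_ne hj]
      by_cases hjb : j ∈ B.bot
      · obtain ⟨p, hp, rfl⟩ := List.mem_map.1 ((B.lowCover s hsb j hjb).resolve_left hj)
        exact ht p hp
      · rw [B.low_fix hsb t x (fun j hj _ => hsupp j hj) j hjb, hsupp j hjb]
  rw [← B.mult_low ρ ψ hW hsb t x, e]
  exact B.mult_single ρ ψ hW k s (by omega) _ hs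

omit [DecidableEq F] hW in
theorem card_coords (l : List (ℕ × Fin k)) (h : (l.map Prod.snd).Nodup) :
    Fintype.card (↥(l.map Prod.snd).toFinset → F) = Fintype.card F ^ l.length := by
  rw [Fintype.card_fun, Fintype.card_coe, List.toFinset_card_of_nodup h, List.length_map]

omit hW in
/-- Extension by zero. -/
def ext0 (l : List (ℕ × Fin k)) (u : ↥(l.map Prod.snd).toFinset → F) : Fin k → F :=
  fun j => if h : j ∈ (l.map Prod.snd).toFinset then u ⟨j, h⟩ else 0

omit hW in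
theorem star_inj {s : Fin k} {l : List (ℕ × Fin k)} (h : StarOk B.b k s l)
    (hr : ∀ p ∈ l, B.lo ≤ p.1 ∧ p.1 < B.hi) {x x' : Fin k → F} (hxs : x s = x' s) (hs : x s ≠ 0)
    (hx : ∀ p ∈ l, x p.2 = x' p.2) {u u' : ↥(l.map Prod.snd).toFinset → F}
    (e : app B.b l (ext0 l u) x = app B.b l (ext0 l u') x') : u = u' := by
  funext ⟨j, hj⟩
  obtain ⟨p, hp, rfl⟩ := List.mem_map.1 (List.mem_toFinset.1 hj)
  obtain ⟨c, hc, he⟩ := (star_spec h (ext0 l u) x).2 p hp
  obtain ⟨c', hc', he'⟩ := (star_spec h (ext0 l u') x').2 p hp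
  obtain rfl : c = c' := by rw [hc] at hc'; simpa using hc'
  have hc0 : (c : F) ≠ 0 := cast_pm (B.pm (hr p hp).1 (hr p hp).2 p.2 (s, c) (by simp [hc]))
  have := congrFun e p.2
  rw [he, he', hx p hp, ← hxs, ext0, dif_pos hj, ext0, dif_pos hj] at this
  exact mul_left_cancel₀ hc0 (mul_right_cancel₀ hs (add_left_cancel this))

theorem big (y : Fin k → F) (hy : y B.top ≠ 0) (hmid : ∀ j, j ∉ B.bot → j ≠ B.top → y j = 0)
    (s : Fin k) (hsb : s ∈ B.bot) (hs : y s ≠ 0) :
    mult ρ ψ W B.b y * Fintype.card F ^ ((B.cel B.top).length + (B.lw s).length) ≤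
      ∑ x ∈ (Finset.univ : Finset (Fin k → F)).erase 0, mult ρ ψ W B.b x := by
  classical
  let f : (↥((B.cel B.top).map Prod.snd).toFinset → F) × (↥((B.lw s).map Prod.snd).toFinset → F) →
      (Fin k → F) :=
    fun q => app B.b (B.cel B.top) (ext0 _ q.1) (app B.b (B.lw s) (ext0 _ q.2) y)
  have hz : ∀ (t : Fin k → F) j, j ∉ B.bot → app B.b (B.lw s) t y j = y j := fun t => B.low_fix hsb t y hmid
  have hf : Function.Injective f := by
    rintro ⟨t, u⟩ ⟨t', u'⟩ e
    have et : t = t' := B.star_inj (B.celOk _) (B.celRange _)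
      (x := app B.b (B.lw s) (ext0 _ u) y) (x' := app B.b (B.lw s) (ext0 _ u') y)
      (by rw [hz _ _ B.top_nmem, hz _ _ B.top_nmem]) (by rw [hz _ _ B.top_nmem]; exact hy)
      (fun p hp => by rw [hz _ _ (B.celTop p hp), hz _ _ (B.celTop p hp)]) e
    subst et
    have e' := app_injective B.ok (B.celRange B.top) _ e
    obtain rfl : u = u' := B.star_inj (B.lowOk s hsb).1 (B.lowRange s hsb) rfl hs (fun p _ => rfl) e'
    rfl
  have hne : ∀ q, f q ≠ 0 := fun q h => by
    have := congrFun h B.top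
    simp only [f, (star_spec (B.celOk B.top) _ _).1, hz _ _ B.top_nmem, Pi.zero_apply] at this
    exact hy this
  have hm : ∀ q, mult ρ ψ W B.b (f q) = mult ρ ψ W B.b y := fun q =>
    (B.mult_cel ρ ψ hW _ _ _).trans (B.mult_low ρ ψ hW hsb _ _)
  refine le_trans (le_of_eq ?_) (Finset.sum_le_sum_of_subset (f := mult ρ ψ W B.b)
    (s := Finset.univ.image f) (fun z hz => ?_))
  · rw [Finset.sum_image hf.injOn, Finset.sum_congr rfl (fun q _ => hm q), Finset.sum_const, Finset.card_univ,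
      Fintype.card_prod, card_coords _ (B.celOk B.top).1, card_coords _ (B.lowOk s hsb).1.1, smul_eq_mul, pow_add,
      mul_comm]
  · obtain ⟨q, -, rfl⟩ := Finset.mem_image.1 hz
    exact Finset.mem_erase.2 ⟨hne q, Finset.mem_univ _⟩

/-- The orbit of the characters supported at one coordinate. -/
theorem cells_le :
    mult ρ ψ W B.b (Pi.single B.top (1 : F)) *
        ((Fintype.card F - 1) * ∑ s : Fin k, Fintype.card F ^ (B.cel s).length) ≤
      ∑ x ∈ (Finset.univ : Finset (Fin k → F)).erase 0, mult ρ ψ W B.b x := by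
  classical
  let f : (Σ s : Fin k, Fˣ × (↥((B.cel s).map Prod.snd).toFinset → F)) → (Fin k → F) :=
    fun q => app B.b (B.cel q.1) (ext0 _ q.2.2) (Pi.single q.1 (q.2.1 : F))
  have hs : ∀ q, f q q.1 = (q.2.1 : F) := fun q => by
    simp only [f, (star_spec (B.celOk q.1) _ _).1, Pi.single_eq_same]
  have hab : ∀ q, ∀ j, q.1 < j → f q j = 0 := fun q =>
    B.cel_above _ _ _ fun j hj => Pi.single_eq_of_ne hj.ne' _
  have hf : Function.Injective f := by
    rintro ⟨s, a, u⟩ ⟨s', a', u'⟩ e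
    have h1 : s = s' := by
      rcases lt_trichotomy s s' with h | h | h
      · have := hab ⟨s, a, u⟩ s' h
        rw [e, hs ⟨s', a', u'⟩] at this
        exact absurd this a'.ne_zero
      · exact h
      · have := hab ⟨s', a', u'⟩ s h
        rw [← e, hs ⟨s, a, u⟩] at this
        exact absurd this a.ne_zero
    subst h1
    have h2 : a = a' := Units.ext (by rw [← hs ⟨s, a, u⟩, e, hs ⟨s, a', u'⟩])
    subst h2
    obtain rfl : u = u' := B.star_inj (B.celOk s) (B.celRange s) rfl (by simp) (fun p _ => rfl) e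
    rfl
  have hm : ∀ q, mult ρ ψ W B.b (f q) = mult ρ ψ W B.b (Pi.single B.top 1) := fun q =>
    (B.mult_cel ρ ψ hW _ _ _).trans (B.mult_single ρ ψ hW k q.1 (by omega) _ q.2.1.ne_zero)
  refine le_trans (le_of_eq ?_) (Finset.sum_le_sum_of_subset (f := mult ρ ψ W B.b)
    (s := Finset.univ.image f) (fun z hz => ?_))
  · rw [Finset.sum_image hf.injOn, Finset.sum_congr rfl (fun q _ => hm q), Finset.sum_const, Finset.card_univ,
      Fintype.card_sigma, smul_eq_mul, mul_comm, Finset.mul_sum]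
    congr 1
    refine Finset.sum_congr rfl fun s _ => ?_
    rw [Fintype.card_prod, card_coords _ (B.celOk s).1, Fintype.card_units]
  · obtain ⟨q, -, rfl⟩ := Finset.mem_image.1 hz
    refine Finset.mem_erase.2 ⟨fun h => q.2.1.ne_zero ?_, Finset.mem_univ _⟩
    rw [← hs q, h]; rfl

/-- A nonzero character occurring gives a large orbit or a character supported at one coordinate. -/
theorem dichotomy {n : ℕ} (hn : ∀ s ∈ B.bot, n ≤ (B.cel B.top).length + (B.lw s).length)
    (x : Fin k → F) (hx : x ≠ 0) (hpos : 0 < mult ρ ψ W B.b x) :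
    Fintype.card F ^ n ≤ ∑ x ∈ (Finset.univ : Finset (Fin k → F)).erase 0, mult ρ ψ W B.b x ∨
      0 < mult ρ ψ W B.b (Pi.single B.top (1 : F)) := by
  obtain ⟨y, hy, hmid, he⟩ := B.normalise ρ ψ hW x hx
  by_cases h : ∃ s ∈ B.bot, y s ≠ 0
  · obtain ⟨s, hsb, hs⟩ := h
    left
    refine le_trans ?_ (B.big ρ ψ hW y hy hmid s hsb hs)
    calc Fintype.card F ^ n ≤ Fintype.card F ^ ((B.cel B.top).length + (B.lw s).length) :=
          Nat.pow_le_pow_right Fintype.card_pos (hn s hsb)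
      _ ≤ _ := Nat.le_mul_of_pos_left _ (he ▸ hpos)
  · right
    have e : y = Pi.single B.top (y B.top) := by
      funext j
      rcases eq_or_ne j B.top with rfl | hj
      · simp
      · rw [Pi.single_eq_of_ne hj]
        by_cases hjb : j ∈ B.bot
        · by_contra hne; exact h ⟨j, hjb, hne⟩
        · exact hmid j hjb hj
    rw [← B.mult_single ρ ψ hW k B.top (by omega) _ hy, ← e, he]
    exact hpos

end Block

end Cfsg.Agent.E6Deg
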