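import Cfsg.Agent.E6Deg.Block

/-!
# The two blocks of E₆(q)
-/

set_option autoImplicit false
set_option synthInstance.maxSize 2000
set_option synthInstance.maxHeartbeats 200000

namespace Cfsg.Agent.E6Deg

open Cfsg.Lie

theorem coverLowA : ∀ s : Fin 16, s ∈ botA → ∀ j : Fin 16, j ∈ botA →
    j = s ∨ j ∈ (low 56 16 26 46 botA s).map Prod.snd := by decide +kernel

theorem coverLowB : ∀ s : Fin 10, s ∈ botB → ∀ j : Fin 10, j ∈ botB →
    j = s ∨ j ∈ (low 46 10 26 46 botB s).map Prod.snd := by decide +kernel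

/-- The unipotent radical of the parabolic subgroup of type D₅. -/
def bA : Block 16 where
  b := 56
  lo := 16
  hi := 56
  top := 15
  bot := botA
  cel := cell 56 16 36 56
  lw := low 56 16 26 46 botA
  hb := le_refl _
  hhi := by norm_num
  ok := blockA
  comm := commA
  celOk := cellA
  celRange s p hp := ⟨(show 16 ≤ 36 by norm_num).trans (cellPosA s p hp).1, (cellPosA s p hp).2⟩
  celPos s p hp j i hi := by
    obtain ⟨h1, h2⟩ := cellPosA s p hp
    exact posA ⟨p.1 - 36, by omega⟩ j i (by rwa [show 36 + (p.1 - 36) = p.1 by omega])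
  edge := edgeA
  up := upA
  celNe := by
    intro h
    have := cellTopA.1
    rw [h] at this
    simp at this
  top_nmem := cellTopA.2.2
  cover := topA
  celTop := cellTopA.2.1
  lowOk s hs := ⟨(lowA s hs).1, (lowA s hs).2.2⟩
  lowRange s hs p hp := ⟨(show 16 ≤ 26 by norm_num).trans (edgeLowA s hs p hp).1,
    (edgeLowA s hs p hp).2.trans_le (by norm_num)⟩
  lowCover := coverLowA

/-- The part in the Levi factor of the radical of the parabolic subgroup of type A₅. -/
def bB : Block 10 where
  b := 46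
  lo := 26
  hi := 46
  top := 9
  bot := botB
  cel := cell 46 10 36 46
  lw := low 46 10 26 46 botB
  hb := by norm_num
  hhi := by norm_num
  ok := blockB
  comm := commB
  celOk := cellB
  celRange s p hp := ⟨(show 26 ≤ 36 by norm_num).trans (cellPosB s p hp).1, (cellPosB s p hp).2⟩
  celPos s p hp j i hi := by
    obtain ⟨h1, h2⟩ := cellPosB s p hp
    exact posB ⟨p.1 - 36, by omega⟩ j i (by rwa [show 36 + (p.1 - 36) = p.1 by omega])
  edge := edgeB
  up := upB
  celNe := by
    intro h
    have := cellTopB.1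
    rw [h] at this
    simp at this
  top_nmem := cellTopB.2.2
  cover := topB
  celTop := cellTopB.2.1
  lowOk s hs := ⟨(lowB s hs).1, (lowB s hs).2.2⟩
  lowRange s hs p hp := edgeLowB s hs p hp
  lowCover := coverLowB

theorem bA_big : ∀ s ∈ bA.bot, 14 ≤ (bA.cel bA.top).length + (bA.lw s).length := by
  intro s hs
  have h1 := cellTopA.1
  have h2 := (lowA s hs).2.1
  show 14 ≤ (cell 56 16 36 56 15).length + (low 56 16 26 46 botA s).length
  omega

theorem bB_big : ∀ s ∈ bB.bot, 8 ≤ (bB.cel bB.top).length + (bB.lw s).length := by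
  intro s hs
  have h1 := cellTopB.1
  have h2 := (lowB s hs).2.1
  show 8 ≤ (cell 46 10 36 46 9).length + (low 46 10 26 46 botB s).length
  omega

theorem bA_sum (q : ℕ) : ∑ s : Fin 16, q ^ (bA.cel s).length =
    (([0, 1, 2, 3, 4, 3, 4, 5, 5, 6, 7, 6, 7, 8, 9, 10] : List ℕ).map (q ^ ·)).sum := by
  rw [← cellA_length, List.map_ofFn, List.sum_ofFn]
  rfl

theorem bB_sum (q : ℕ) : ∑ s : Fin 10, q ^ (bB.cel s).length =
    (([0, 1, 2, 3, 2, 3, 4, 4, 5, 6] : List ℕ).map (q ^ ·)).sum := by
  rw [← cellB_length, List.map_ofFn, List.sum_ofFn]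
  rfl

end Cfsg.Agent.E6Deg
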