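import Cfsg.Agent.E6Deg.Data
import Cfsg.Agent.E6Deg.SLHom

/-!
# Further facts on the roots of E₆
-/

set_option autoImplicit false
set_option synthInstance.maxSize 2000
set_option synthInstance.maxHeartbeats 200000

namespace Cfsg.Agent.E6Deg

open Cfsg.Lie

/-- The radical of the parabolic subgroup of type D₅. -/
def PA (r : ℕ) : Prop := 56 ≤ r ∧ r < 72

/-- The radical of the parabolic subgroup of type A₅. -/
def PH (r : ℕ) : Prop := (46 ≤ r ∧ r < 56) ∨ (61 ≤ r ∧ r < 72)

/-- The radical of type D₅ without its lowest root. -/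
def PY (r : ℕ) : Prop := 57 ≤ r ∧ r < 72

instance : DecidablePred PA := fun r => inferInstanceAs (Decidable (_ ∧ _))
instance : DecidablePred PH := fun r => inferInstanceAs (Decidable (_ ∨ _))
instance : DecidablePred PY := fun r => inferInstanceAs (Decidable (_ ∧ _))

/-- The roots of the first set are moved into sums from the first set by the root `r`. -/
def NormOk (P : ℕ → Prop) (r : ℕ) : Prop :=
  ∀ s : Fin 72, P s.val → s.val = r ∨
    (s.val ≠ chevE6.neg r ∧ ∀ c ∈ chevE6.commTerms r s.val, P c.1)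

instance (P : ℕ → Prop) [DecidablePred P] (r : ℕ) : Decidable (NormOk P r) :=
  inferInstanceAs (Decidable (∀ _, _))

theorem normA : ∀ r : Fin 56, NormOk PA (16 + r.val) := by decide +kernel

theorem normH : ∀ i j : Fin 6, i ≠ j → NormOk PH (rA i j) := by decide +kernel

theorem normH' : ∀ r : Fin 16, NormOk PH (56 + r.val) := by decide +kernel

theorem normY : ∀ r : Fin 16, NormOk PY (56 + r.val) := by decide +kernel

theorem stab56 : ∀ r : Fin 10, ∃ a b : Fin 40, (16 + b.val) ≠ 16 + a.val ∧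
    (16 + b.val) ≠ chevE6.neg (16 + a.val) ∧
    (∃ c ∈ ([1, -1] : List ℤ), chevE6.commTerms (16 + a.val) (16 + b.val) = [(46 + r.val, c, 1, 1)]) ∧
    (∀ j : Fin 16, (tgt 56 16 (16 + a.val) j).map Prod.fst ≠ some 0) ∧
    ∀ j : Fin 16, (tgt 56 16 (16 + b.val) j).map Prod.fst ≠ some 0 := by decide +kernel

theorem spreadLevi : ∀ r : Fin 20, ∃ a : Fin 10, ∃ b : Fin 40, (16 + b.val) ≠ 46 + a.val ∧
    (16 + b.val) ≠ chevE6.neg (46 + a.val) ∧
    ∃ c ∈ ([1, -1] : List ℤ), chevE6.commTerms (46 + a.val) (16 + b.val) = [(26 + r.val, c, 1, 1)] := by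
  decide +kernel

theorem spreadNeg : ∀ r : Fin 10, ∃ a : Fin 20, ∃ b : Fin 40, (16 + b.val) ≠ 26 + a.val ∧
    (16 + b.val) ≠ chevE6.neg (26 + a.val) ∧
    ∃ c ∈ ([1, -1] : List ℤ), chevE6.commTerms (26 + a.val) (16 + b.val) = [(16 + r.val, c, 1, 1)] := by
  decide +kernel

theorem spreadDown : ∀ r : Fin 15, ∃ a : Fin 16, ∃ b : Fin 56, r.val < a.val ∧ (16 + b.val) ≠ a.val ∧
    (16 + b.val) ≠ chevE6.neg a.val ∧
    ∃ c ∈ ([1, -1] : List ℤ), chevE6.commTerms a.val (16 + b.val) = [(r.val, c, 1, 1)] := by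
  decide +kernel

theorem refl57 : ∀ s : Fin 15, 16 ≤ chevE6.reflectRoot 0 (57 + s.val) ∧
    chevE6.reflectRoot 0 (57 + s.val) < 72 ∧
    chevE6.reflectRoot 0 (chevE6.reflectRoot 0 (57 + s.val)) = 57 + s.val := by decide +kernel

theorem refl15 : chevE6.reflectRoot 0 15 = 56 := by decide +kernel

theorem botA_iff : ∀ j : Fin 16, j ∈ botA ↔ j.val < 5 := by decide +kernel

end Cfsg.Agent.E6Deg
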