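import Cfsg.Agent.E6Deg.Blocks
import Cfsg.Agent.E6Deg.Data3
import Cfsg.Agent.E6Deg.Arith
import Cfsg.Agent.Char.Integrality
import Cfsg.Agent.S1063

/-!
# The least degree of a nonlinear irreducible representation of E₆(q)

With respect to the abelian radical of the parabolic subgroup of type D₅ the nontrivial characters occurring
give the term `q¹¹ + q⁸ - q³ - 1`; on the fixed space of that radical the radical of type A₄ inside D₅ gives
`q⁷ + q⁵ - q² - 1`; what is left is bounded below through the Levi subgroup of type A₅.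
-/

set_option autoImplicit false
set_option linter.unusedSectionVars false

namespace Cfsg.Agent.E6Deg

open Cfsg.Lie
open Module (finrank)

theorem poly11 (q : ℕ) (hq : 1 ≤ q) :
    (q - 1) * (([0, 1, 2, 3, 4, 3, 4, 5, 5, 6, 7, 6, 7, 8, 9, 10] : List ℕ).map (q ^ ·)).sum + q ^ 3 + 1 =
      q ^ 11 + q ^ 8 := by
  obtain ⟨p, rfl⟩ : ∃ p, q = p + 1 := ⟨q - 1, by omega⟩
  simp
  ring

theorem poly7 (q : ℕ) (hq : 1 ≤ q) :
    (q - 1) * (([0, 1, 2, 3, 2, 3, 4, 4, 5, 6] : List ℕ).map (q ^ ·)).sum + q ^ 2 + 1 = q ^ 7 + q ^ 5 := by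
  obtain ⟨p, rfl⟩ : ∃ p, q = p + 1 := ⟨q - 1, by omega⟩
  simp
  ring

theorem poly6 (q : ℕ) (hq : 1 ≤ q) : q ^ 6 - q = (q - 1) * (q ^ 5 + q ^ 4 + q ^ 3 + q ^ 2 + q) := by
  obtain ⟨p, rfl⟩ : ∃ p, q = p + 1 := ⟨q - 1, by omega⟩
  rw [Nat.add_sub_cancel]
  apply Nat.sub_eq_of_eq_add
  ring

section Fix

variable {F : Type*} [Field F] {V : Type*} [AddCommGroup V] [Module ℂ V] (ρ : Representation ℂ (Gam F) V)

/-- The vectors fixed by a set of root groups. -/
def fixS (P : ℕ → Prop) : Submodule ℂ V where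
  carrier := {v | ∀ r, P r → ∀ t : F, ρ (X r t) v = v}
  add_mem' := fun {v w} hv hw r hr t => by rw [map_add, hv r hr t, hw r hr t]
  zero_mem' := fun r _ t => map_zero _
  smul_mem' := fun c {v} hv r hr t => by rw [map_smul, hv r hr t]

theorem rho_X_inj {r : ℕ} (hr : r < 72) (t : F) {v w : V} (h : ρ (X r t) v = ρ (X r t) w) : v = w := by
  have e := congrArg (ρ (X r (-t))) h
  have c : ∀ z, ρ (X r (-t)) (ρ (X r t) z) = z := fun z => by
    have := rho_X_neg ρ hr (-t) z
    rwa [neg_neg] at this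
  rwa [c, c] at e

theorem prod_fix {P : ℕ → Prop} {v : V} (hv : v ∈ fixS ρ P) : ∀ L : List (ℕ × F), (∀ p ∈ L, P p.1) →
    ρ (L.map fun p => X p.1 p.2).prod v = v
  | [], _ => by simp
  | p :: L, h => by
    rw [List.map_cons, List.prod_cons, map_mul, Module.End.mul_apply,
      prod_fix hv L fun q hq => h q (List.mem_cons_of_mem _ hq), hv p.1 (h p (List.mem_cons_self ..))]

theorem fixS_stable {P : ℕ → Prop} (hP : ∀ s, P s → s < 72) {r : ℕ} (hr : r < 72) (h : NormOk P r) :
    Stable ρ (fixS ρ P) r := by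
  intro t w hw s hs u
  rcases h ⟨s, hP s hs⟩ hs with e | ⟨h2, hc⟩
  · obtain rfl : s = r := e
    rw [hw s hs t, hw s hs u]
  by_cases h1 : s = r
  · subst h1
    rw [hw s hs t, hw s hs u]
  rw [← Module.End.mul_apply, ← map_mul, X_comm hr (hP s hs) h1 h2, map_mul, map_mul, Module.End.mul_apply,
    Module.End.mul_apply, prod_fix ρ hw _ (fun p hp => ?_), hw s hs u]
  obtain ⟨c, hcm, rfl⟩ := List.mem_map.1 hp
  exact hc c hcm

/-- A root group acting trivially on a subspace invariant under another. -/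
theorem fix_sum_stable {a b k : ℕ} {c : ℤ} (ha : a < 72) (hb : b < 72) (h1 : b ≠ a) (h2 : b ≠ chevE6.neg a)
    (h : chevE6.commTerms a b = [(k, c, 1, 1)]) (hc : c ∈ ([1, -1] : List ℤ)) (W : Submodule ℂ V)
    (hWb : Stable ρ W b) (hWa : ∀ v ∈ W, ∀ t : F, ρ (X a t) v = v) (hWk : Stable ρ W k) :
    ∀ v ∈ W, ∀ w : F, ρ (X k w) v = v := by
  intro v hv w
  have hc' : (c : F) ≠ 0 := cast_pm (by simpa using hc)
  have e := X_comm_one (F := F) ha hb h1 h2 h (-w / (c : F)) 1
  rw [show (c : F) * -(-w / (c : F)) * 1 = w by field_simp] at e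
  have e' := congrArg (fun g => ρ g v) e
  simp only [map_mul, Module.End.mul_apply, hWa v hv] at e'
  rw [hWa _ (hWb 1 _ (hWk w v hv))] at e'
  exact (rho_X_inj ρ hb 1 e').symm

end Fix

variable {F : Type*} [Field F] [Fintype F]

theorem X56_ne_one : X 56 (1 : F) ≠ 1 := by
  intro e
  obtain ⟨len, hR⟩ := (rules F).root
  have e' : (ChevSteinberg.grpSys (rules F)).x 56 (1 : F) = (ChevSteinberg.grpSys (rules F)).x 15 0 := by
    rw [(ChevSteinberg.grpSys (rules F)).x_zero (by decide)]; exact e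
  exact absurd ((ChevSteinberg.grpSys (rules F)).x_root_inj hR (by decide) (by decide) one_ne_zero e') (by decide)

variable {V : Type*} [AddCommGroup V] [Module ℂ V] [FiniteDimensional ℂ V]

theorem eig_zero (ρ : Representation ℂ (Gam F) V) (ψ : AddChar F ℂ) :
    eig ρ ψ 56 (0 : Fin 16 → F) = fixS ρ PA := by
  ext v
  constructor
  · intro hv r hr t
    have := hv ⟨r - 56, by have := hr.2; omega⟩ t
    rw [Pi.zero_apply, zero_mul, AddChar.map_zero_eq_one, one_smul] at this
    rwa [show blk 56 (⟨r - 56, by have := hr.2; omega⟩ : Fin 16) = r by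
      have := hr.1; simp [blk]; omega] at this
  · intro hv j u
    rw [Pi.zero_apply, zero_mul, AddChar.map_zero_eq_one, one_smul]
    exact hv _ ⟨Nat.le_add_right _ _, Nat.add_lt_add_left j.isLt 56⟩ u

set_option maxHeartbeats 1000000 in
/-- The bound. -/
theorem min_degree (ρ : Representation ℂ (Gam F) V) [ρ.IsIrreducible] (h2 : 2 ≤ finrank ℂ V) :
    Fintype.card F * (Fintype.card F ^ 6 + Fintype.card F ^ 3 + 1) * (Fintype.card F ^ 4 + 1) ≤ finrank ℂ V := by
  classical
  set q := Fintype.card F with hqdef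
  set d := finrank ℂ V with hd
  have hq : 2 ≤ q := Fintype.one_lt_card
  have hfaith := faithful ρ h2
  obtain ⟨ψ, hψ1⟩ : ∃ ψ : AddChar F ℂ, ψ 1 ≠ 1 := AddChar.exists_apply_ne_zero.2 one_ne_zero
  have hψ : ψ ≠ 1 := fun e => hψ1 (by rw [e]; rfl)
  rw [show q * (q ^ 6 + q ^ 3 + 1) * (q ^ 4 + 1) = q ^ 11 + q ^ 8 + q ^ 7 + q ^ 5 + q ^ 4 + q by ring]
  by_contra! hlt
  have hp : ∀ a b : ℕ, a ≤ b → q ^ a ≤ q ^ b := fun a b h => Nat.pow_le_pow_right (by omega) h
  have hdbl : ∀ a b : ℕ, b = a + 1 → 2 * q ^ a ≤ q ^ b := fun a b hb => by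
    rw [hb, pow_succ, mul_comm]; exact Nat.mul_le_mul_left _ hq
  have htop : ∀ r, Stable ρ (⊤ : Submodule ℂ V) r := fun r t w _ => trivial
  -- the block of type D₅
  set S := ∑ x ∈ (Finset.univ : Finset (Fin 16 → F)).erase 0, mult ρ ψ ⊤ 56 x with hS
  set W1 := fixS ρ PA with hW1
  set f1 := finrank ℂ W1 with hf1
  have hsum : f1 + S = d := by
    have h := sum_mult (k := 16) (b := 56) ρ ψ hψ (le_refl _) (fun j => htop _) commA (W := (⊤ : Submodule ℂ V))
    rw [← Finset.add_sum_erase _ _ (Finset.mem_univ (0 : Fin 16 → F)), finrank_top, ← hS] at h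
    rw [hd, ← h, hf1, hW1, ← eig_zero ρ ψ, mult, top_inf_eq]
  have hS0 : ∃ x : Fin 16 → F, x ≠ 0 ∧ 0 < mult ρ ψ ⊤ 56 x := by
    by_contra! h
    have hz : S = 0 := Finset.sum_eq_zero fun x hx => Nat.le_zero.1 (h x (Finset.ne_of_mem_erase hx))
    have hfull : W1 = ⊤ := Submodule.eq_top_of_finrank_eq (by omega)
    refine X56_ne_one (F := F) (hfaith _ (LinearMap.ext fun v => ?_))
    have hv : v ∈ W1 := hfull ▸ Submodule.mem_top
    exact hv 56 ⟨le_refl _, by norm_num⟩ 1
  obtain ⟨x0, hx0, hx0p⟩ := hS0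
  have hWA : ∀ r, bA.lo ≤ r → r < bA.hi → Stable ρ (⊤ : Submodule ℂ V) r := fun r _ _ => htop r
  set O1 := (q - 1) * ∑ s : Fin 16, q ^ (bA.cel s).length with hO1
  have hO1v : O1 + q ^ 3 + 1 = q ^ 11 + q ^ 8 := by
    rw [hO1, bA_sum]
    exact poly11 q (by omega)
  set m0 := mult ρ ψ (⊤ : Submodule ℂ V) 56 (Pi.single (15 : Fin 16) (1 : F)) with hm0
  have hm0p : 0 < m0 := by
    rcases bA.dichotomy ρ ψ hWA bA_big x0 hx0 hx0p with h | h
    · exfalso
      have h' : q ^ 14 ≤ S := h
      have := hp 4 11 (by norm_num); have := hp 1 11 (by norm_num); have := hp 5 11 (by norm_num)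
      have := hp 7 11 (by norm_num); have := hp 8 11 (by norm_num)
      have := hdbl 11 12 rfl; have := hdbl 12 13 rfl; have := hdbl 13 14 rfl
      rw [pow_one] at *
      omega
    · exact h
  have hcells : m0 * O1 ≤ S := bA.cells_le ρ ψ hWA
  have hm1 : m0 = 1 := by
    by_contra hne
    have h2' : 2 * O1 ≤ m0 * O1 := Nat.mul_le_mul_right _ (by omega)
    have := hp 3 8 (by norm_num); have := hp 5 8 (by norm_num); have := hp 4 8 (by norm_num)
    have := hp 1 8 (by norm_num); have := hp 7 8 (by norm_num); have := hp 0 8 (by norm_num)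
    have := hdbl 8 9 rfl; have := hdbl 9 10 rfl; have := hdbl 10 11 rfl
    rw [pow_one] at *
    rw [pow_zero] at *
    omega
  -- a vector with a character supported at the lowest root
  set v0 : Fin 16 → F := Pi.single 0 1 with hv0
  have hv0m : finrank ℂ ↥(eig ρ ψ 56 v0) = 1 := by
    have := bA.mult_single ρ ψ hWA 16 0 (by simp) (1 : F) one_ne_zero
    rw [mult, top_inf_eq] at this
    exact this.trans hm1
  obtain ⟨⟨v1, hv1⟩, hv1ne, hspan⟩ := finrank_eq_one_iff'.1 hv0m
  replace hv1ne : v1 ≠ 0 := fun h => hv1ne (Subtype.ext h)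
  have hscal : ∀ r, 16 ≤ r → r < 56 → (∀ j : Fin 16, (tgt 56 16 r j).map Prod.fst ≠ some 0) →
      ∀ t : F, ∃ e : ℂ, ρ (X r t) v1 = e • v1 := by
    intro r h1 h2 hfix t
    have hm : mv 56 r t v0 = v0 := by
      funext j
      rcases h : tgt 56 16 r j with _ | ⟨i, c⟩
      · rw [mv_none h]
      · have : i ≠ 0 := fun e => hfix j (by simp [h, e])
        rw [mv_some h, hv0, Pi.single_eq_of_ne this, mul_zero, add_zero]
    have := mem_eig_mv ρ ψ blockA (le_refl _) (show 56 ≤ 72 by norm_num) h1 h2 t hv1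
    rw [hm] at this
    obtain ⟨e, he⟩ := hspan ⟨_, this⟩
    exact ⟨e, (congrArg Subtype.val he).symm⟩
  have hv1H : v1 ∈ fixS ρ PH := by
    intro r hr t
    rcases hr with ⟨h1, h2⟩ | ⟨h1, h2⟩
    · obtain ⟨a, b, hn1, hn2, ⟨c, hc, hcomm⟩, ha, hb⟩ := stab56 ⟨r - 46, by omega⟩
      rw [show 46 + ((⟨r - 46, by omega⟩ : Fin 10) : ℕ) = r by simp; omega] at hcomm
      exact fix_sum ρ (show 16 + a.val < 72 by omega) (show 16 + b.val < 72 by omega) hn1 hn2 hcomm
        (cast_pm (by simpa using hc)) (hscal _ (by omega) (by omega) ha) (hscal _ (by omega) (by omega) hb) t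
    · have := hv1 ⟨r - 56, by omega⟩ t
      rw [show blk 56 (⟨r - 56, by omega⟩ : Fin 16) = r by simp [blk]; omega,
        hv0, Pi.single_eq_of_ne (by simp [Fin.ext_iff]; omega), zero_mul, AddChar.map_zero_eq_one, one_smul] at this
      exact this
  -- the fixed space of the radical of type A₅
  set WH := fixS ρ PH with hWH
  set f0 := finrank ℂ WH with hf0
  have hPH : ∀ s, PH s → s < 72 := fun s hs => by rcases hs with h | h <;> omega
  have hf0b : q ^ 6 - q ≤ (q - 1) * f0 := by
    refine le_finrank_levi ρ WH (fun i j hij t => fixS_stable ρ hPH (rA_lt i j) (normH i j hij) t) ⟨1, v1, hv1H, ?_⟩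
    intro h
    have := hv1 0 1
    rw [show blk 56 (0 : Fin 16) = 56 from rfl, h, hv0, Pi.single_eq_same, one_mul] at this
    refine hψ1 (smul_left_injective ℂ hv1ne ?_)
    show ψ 1 • v1 = (1 : ℂ) • v1
    rw [← this, one_smul]
  set g := finrank ℂ ↥(W1 ⊓ WH) with hg
  have hf0g : f0 + 1 ≤ g + q ^ 5 := by
    have h := sum_mult (k := 16) (b := 56) ρ ψ hψ (le_refl _)
      (fun j => fixS_stable ρ hPH (show blk 56 j < 72 by unfold blk; omega) (normH' j)) commA (W := WH)
    rw [← Finset.add_sum_erase _ _ (Finset.mem_univ (0 : Fin 16 → F))] at h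
    have h0 : mult ρ ψ WH 56 (0 : Fin 16 → F) = g := by rw [mult, eig_zero, hg, inf_comm]
    let T : Finset (Fin 16 → F) :=
      (Finset.univ.image fun u : Fin 5 → F => fun j : Fin 16 => if h : j.val < 5 then u ⟨j, h⟩ else 0).erase 0
    have hle : ∑ x ∈ (Finset.univ : Finset (Fin 16 → F)).erase 0, mult ρ ψ WH 56 x ≤ T.card := by
      rw [Finset.card_eq_sum_ones, ← Finset.sum_subset (s₁ := T) (Finset.erase_subset_erase _ (Finset.subset_univ _))
        (f := mult ρ ψ WH 56)]
      · refine Finset.sum_le_sum fun x hx => ?_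
        obtain ⟨hx0, hx⟩ := Finset.mem_erase.1 hx
        obtain ⟨u, -, rfl⟩ := Finset.mem_image.1 hx
        have e := bA.mult_bot ρ ψ hWA _ hx0 fun j hj => dif_neg fun h => hj ((botA_iff j).2 h)
        rw [← hm1, hm0]
        refine le_trans ?_ e.le
        exact Submodule.finrank_mono (inf_le_inf_right _ le_top)
      · intro x hx hxT
        rw [mult, Submodule.finrank_eq_zero, eq_bot_iff]
        rintro v ⟨hvH, hve⟩
        rw [Submodule.mem_bot]
        obtain ⟨j, hj5, hj⟩ : ∃ j : Fin 16, 5 ≤ j.val ∧ x j ≠ 0 := by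
          by_contra! hall
          refine hxT (Finset.mem_erase.2 ⟨Finset.ne_of_mem_erase hx, Finset.mem_image.2
            ⟨fun i => x ⟨i, by omega⟩, Finset.mem_univ _, ?_⟩⟩)
          funext i
          split_ifs with hi
          · rfl
          · exact (hall i (by omega)).symm
        have h1 := hve j ((x j)⁻¹)
        rw [mul_inv_cancel₀ hj, hvH (blk 56 j) (Or.inr ⟨by unfold blk; omega, by unfold blk; omega⟩)] at h1
        by_contra hv
        exact hψ1 (smul_left_injective ℂ hv (show ψ 1 • v = (1 : ℂ) • v by rw [← h1, one_smul]))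
    have hT : T.card + 1 ≤ q ^ 5 := by
      have h5 : (Finset.univ : Finset (Fin 5 → F)).card = q ^ 5 := by simp [hqdef]
      have hmem : (0 : Fin 16 → F) ∈ Finset.univ.image
          fun u : Fin 5 → F => fun j : Fin 16 => if h : j.val < 5 then u ⟨j, h⟩ else 0 :=
        Finset.mem_image.2 ⟨0, Finset.mem_univ _, by funext j; split_ifs <;> rfl⟩
      show (Finset.erase _ _).card + 1 ≤ _
      rw [Finset.card_erase_add_one hmem, ← h5]
      exact Finset.card_image_le
    rw [← hf0, h0] at h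
    omega
  have hgb : q ^ 4 + q ^ 3 + q ^ 2 + q + 1 ≤ g := by
    have e := poly6 q (by omega)
    have := Nat.le_of_mul_le_mul_left (e ▸ hf0b) (show 0 < q - 1 by omega)
    omega
  -- the block of type A₄ on the fixed space of the radical of type D₅
  have hPA : ∀ s, PA s → s < 72 := fun s hs => hs.2
  have hW1st : ∀ r, 16 ≤ r → r < 56 → Stable ρ W1 r := fun r h1 h2 => by
    refine fixS_stable ρ hPA (show r < 72 by omega) ?_
    have := normA ⟨r - 16, by omega⟩
    rwa [show 16 + ((⟨r - 16, by omega⟩ : Fin 56) : ℕ) = r by simp; omega] at this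
  have hWB : ∀ r, bB.lo ≤ r → r < bB.hi → Stable ρ W1 r := fun r h1 h2 => by
    have h1' : 26 ≤ r := h1
    have h2' : r < 46 := h2
    exact hW1st r (by omega) (by omega)
  have hsumB := sum_mult (k := 10) (b := 46) ρ ψ hψ (by norm_num)
    (fun j => hW1st _ (by unfold blk; omega) (by unfold blk; omega)) commB (W := W1)
  rw [← Finset.add_sum_erase _ _ (Finset.mem_univ (0 : Fin 10 → F)), ← hf1] at hsumB
  by_cases hB : ∃ x : Fin 10 → F, x ≠ 0 ∧ 0 < mult ρ ψ W1 46 x
  · obtain ⟨x1, hx1, hx1p⟩ := hB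
    set O5 := (q - 1) * ∑ s : Fin 10, q ^ (bB.cel s).length with hO5
    have hO5v : O5 + q ^ 2 + 1 = q ^ 7 + q ^ 5 := by
      rw [hO5, bB_sum]
      exact poly7 q (by omega)
    have hS5 : O5 ≤ ∑ x ∈ (Finset.univ : Finset (Fin 10 → F)).erase 0, mult ρ ψ W1 46 x := by
      rcases bB.dichotomy ρ ψ hWB bB_big x1 hx1 hx1p with h | h
      · have h' : q ^ 8 ≤ ∑ x ∈ (Finset.univ : Finset (Fin 10 → F)).erase 0, mult ρ ψ W1 46 x := h
        have := hp 5 7 (by norm_num); have := hdbl 7 8 rfl
        omega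
      · exact le_trans (Nat.le_mul_of_pos_left _ h) (bB.cells_le ρ ψ hWB)
    have hg0 : g ≤ mult ρ ψ W1 46 (0 : Fin 10 → F) := by
      refine Submodule.finrank_mono fun v hv => ⟨hv.1, fun j u => ?_⟩
      rw [Pi.zero_apply, zero_mul, AddChar.map_zero_eq_one, one_smul]
      exact hv.2 _ (Or.inl ⟨Nat.le_add_right _ _, Nat.add_lt_add_left j.isLt 46⟩) u
    rw [hm1, one_mul] at hcells
    have hdeq : d = q ^ 11 + q ^ 8 + q ^ 7 + q ^ 5 + q ^ 4 + q - 1 := by omega
    have hdvd : d ∣ Nat.card (Gam F) := Cfsg.Agent.Char.finrank_dvd_card ρ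
    have hord := Cfsg.Agent.S1063.result (F := F) hqdef.symm
    exact not_dvd_order hq (hdeq ▸ hdvd.trans (Dvd.intro_left _ hord))
  · push Not at hB
    have hz : ∑ x ∈ (Finset.univ : Finset (Fin 10 → F)).erase 0, mult ρ ψ W1 46 x = 0 :=
      Finset.sum_eq_zero fun x hx => Nat.le_zero.1 (hB x (Finset.ne_of_mem_erase hx))
    have hle0 : W1 ⊓ eig ρ ψ 46 (0 : Fin 10 → F) = W1 := by
      refine Submodule.eq_of_le_of_finrank_eq inf_le_left ?_
      show mult ρ ψ W1 46 (0 : Fin 10 → F) = finrank ℂ W1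
      rw [← hf1]; omega
    have hR5 : ∀ r, 46 ≤ r → r < 56 → ∀ v ∈ W1, ∀ t : F, ρ (X r t) v = v := by
      intro r h1 h2 v hv t
      have := (hle0.symm ▸ hv : v ∈ W1 ⊓ eig ρ ψ 46 (0 : Fin 10 → F)).2 ⟨r - 46, by omega⟩ t
      rw [Pi.zero_apply, zero_mul, AddChar.map_zero_eq_one, one_smul,
        show blk 46 (⟨r - 46, by omega⟩ : Fin 10) = r by simp [blk]; omega] at this
      exact this
    have hA4 : ∀ r, 26 ≤ r → r < 46 → ∀ v ∈ W1, ∀ t : F, ρ (X r t) v = v := by
      intro r h1 h2
      obtain ⟨a, b, n1, n2, c, hc, hcomm⟩ := spreadLevi ⟨r - 26, by omega⟩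
      rw [show 26 + ((⟨r - 26, by omega⟩ : Fin 20) : ℕ) = r by simp; omega] at hcomm
      exact fix_sum_stable ρ (show 46 + a.val < 72 by omega) (show 16 + b.val < 72 by omega) n1 n2 hcomm hc W1
        (hW1st _ (by omega) (by omega)) (hR5 _ (by omega) (by omega)) (hW1st r (by omega) (by omega))
    have hfixD : ∀ r, 16 ≤ r → r < 72 → ∀ v ∈ W1, ∀ t : F, ρ (X r t) v = v := by
      intro r h1 h2 v hv
      rcases Nat.lt_or_ge r 56 with h | h
      · rcases Nat.lt_or_ge r 46 with h' | h'
        · rcases Nat.lt_or_ge r 26 with h'' | h''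
          · obtain ⟨a, b, n1, n2, c, hc, hcomm⟩ := spreadNeg ⟨r - 16, by omega⟩
            rw [show 16 + ((⟨r - 16, by omega⟩ : Fin 10) : ℕ) = r by simp; omega] at hcomm
            exact fix_sum_stable ρ (show 26 + a.val < 72 by omega) (show 16 + b.val < 72 by omega) n1 n2 hcomm hc W1
              (hW1st _ (by omega) (by omega)) (hA4 _ (by omega) (by omega)) (hW1st r h1 h) v hv
          · exact hA4 r h'' h' v hv
        · exact hR5 r h' h v hv
      · exact hv r ⟨h, h2⟩
    set Y := fixS ρ PY with hY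
    have hW1Y : W1 ≤ Y := fun v hv s hs t => hv s ⟨by have := hs.1; omega, hs.2⟩ t
    set N := W1.map (ρ (n0 (F := F))) with hN
    have hinj : Function.Injective (ρ (n0 (F := F))) := fun a b h => by
      have := congrArg (ρ (n0 (F := F))⁻¹) h
      rwa [← Module.End.mul_apply, ← Module.End.mul_apply, ← map_mul, inv_mul_cancel, map_one] at this
    have hNY : N ≤ Y := by
      rintro _ ⟨v, hv, rfl⟩ s hs t
      obtain ⟨h16, h72, hinv⟩ := refl57 ⟨s - 57, by have := hs.2; omega⟩
      simp only [show 57 + (s - 57) = s by have := hs.1; omega] at h16 h72 hinv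
      obtain ⟨e, he, hn⟩ := n0_conj (F := F) h72
      have h1 := hn (e * t)
      rw [hinv, ← mul_assoc, he, one_mul] at h1
      rw [← Module.End.mul_apply, ← map_mul, ← h1, map_mul, Module.End.mul_apply, hfixD _ h16 h72 v hv]
    have hdisj : W1 ⊓ N = ⊥ := by
      rw [eq_bot_iff]
      rintro _ ⟨hw, ⟨v, hv, rfl⟩⟩
      rw [Submodule.mem_bot]
      have h15 : ∀ t : F, ρ (X 15 t) v = v := by
        intro t
        obtain ⟨e, -, hn⟩ := n0_conj (F := F) (show 15 < 72 by norm_num)
        refine hinj ?_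
        rw [← Module.End.mul_apply, ← map_mul, hn, refl15, map_mul, Module.End.mul_apply,
          hw 56 ⟨le_refl _, by norm_num⟩]
      have hall : ∀ n r, r < 72 → 72 - r ≤ n → ∀ t : F, ρ (X r t) v = v := by
        intro n
        induction n with
        | zero => intro r hr hn; omega
        | succ n ih =>
          intro r hr hn t
          rcases Nat.lt_or_ge r 16 with h | h
          · rcases Nat.lt_or_ge r 15 with h' | h'
            · obtain ⟨a, b, hra, n1, n2, c, hc, hcomm⟩ := spreadDown ⟨r, h'⟩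
              have hra' : r < a.val := hra
              exact fix_sum ρ (show a.val < 72 by omega) (show 16 + b.val < 72 by omega) n1 n2 hcomm
                (cast_pm (by simpa using hc))
                (fun t => ⟨1, by rw [one_smul]; exact ih a.val (by omega) (by omega) t⟩)
                (fun t => ⟨1, by rw [one_smul]; exact hfixD _ (by omega) (by omega) v hv t⟩) t
            · obtain rfl : r = 15 := by omega
              exact h15 t
          · exact hfixD r h hr v hv t
      rw [fixed_eq_zero ρ hfaith fun r hr => hall 72 r hr (by omega), map_zero]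
    have hdimY : finrank ℂ Y ≤ f1 + (q - 1) := by
      have h := sum_mult (k := 16) (b := 56) ρ ψ hψ (le_refl _)
        (fun j => fixS_stable ρ (fun s hs => hs.2) (show blk 56 j < 72 by unfold blk; omega) (normY j)) commA (W := Y)
      rw [← Finset.add_sum_erase _ _ (Finset.mem_univ (0 : Fin 16 → F))] at h
      rw [← h]
      refine Nat.add_le_add (by rw [mult, hf1, hW1, ← eig_zero ρ ψ]; exact Submodule.finrank_mono inf_le_right) ?_
      let T : Finset (Fin 16 → F) := ((Finset.univ : Finset F).erase 0).image fun a => Pi.single 0 a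
      rw [← Finset.sum_subset (s₁ := T) (f := mult ρ ψ Y 56)]
      · refine (Finset.sum_le_card_nsmul _ _ 1 fun x hx => ?_).trans ?_
        · obtain ⟨a, ha, rfl⟩ := Finset.mem_image.1 hx
          rw [← hm1, hm0]
          refine le_trans (Submodule.finrank_mono (inf_le_inf_right _ le_top)) ?_
          exact (bA.mult_single ρ ψ hWA 16 0 (by simp) a (Finset.ne_of_mem_erase ha)).le
        · rw [smul_eq_mul, mul_one]
          refine Finset.card_image_le.trans ?_
          rw [Finset.card_erase_of_mem (Finset.mem_univ _), Finset.card_univ]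
      · intro x hx
        obtain ⟨a, ha, rfl⟩ := Finset.mem_image.1 hx
        refine Finset.mem_erase.2 ⟨fun h => Finset.ne_of_mem_erase ha ?_, Finset.mem_univ _⟩
        simpa using congrFun h 0
      · intro x hx hxT
        rw [mult, Submodule.finrank_eq_zero, eq_bot_iff]
        rintro v ⟨hvY, hve⟩
        rw [Submodule.mem_bot]
        obtain ⟨j, hj0, hj⟩ : ∃ j : Fin 16, j ≠ 0 ∧ x j ≠ 0 := by
          by_contra! hall
          have e : x = Pi.single 0 (x 0) := by
            funext i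
            rcases eq_or_ne i 0 with rfl | hi
            · simp
            · rw [Pi.single_eq_of_ne hi, hall i hi]
          exact hxT (Finset.mem_image.2 ⟨x 0, Finset.mem_erase.2 ⟨fun h => Finset.ne_of_mem_erase hx
            (by rw [e, h]; simp), Finset.mem_univ _⟩, e.symm⟩)
        have hj1 : 0 < j.val := Nat.pos_of_ne_zero fun h => hj0 (Fin.ext h)
        have h1 := hve j ((x j)⁻¹)
        rw [mul_inv_cancel₀ hj, hvY (blk 56 j) ⟨by unfold blk; omega, by unfold blk; omega⟩] at h1
        by_contra hv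
        exact hψ1 (smul_left_injective ℂ hv (show ψ 1 • v = (1 : ℂ) • v by rw [← h1, one_smul]))
    have hfN : finrank ℂ N = f1 :=
      (Submodule.equivMapOfInjective _ hinj W1).finrank_eq.symm
    have h2f := Submodule.finrank_sup_add_finrank_inf_eq W1 N
    rw [hdisj, finrank_bot, add_zero, hfN, ← hf1] at h2f
    have hle := Submodule.finrank_mono (sup_le hW1Y hNY)
    have hgf : g ≤ f1 := Submodule.finrank_mono inf_le_left
    omega

end Cfsg.Agent.E6Deg
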